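import Cfsg.Agent.Lib.FiKit.Basic

/-!
# A criterion for an involution centraliser to be a double cover of the alternating group of degree eight

A subgroup of the product of the centraliser `C` and of `A₈` which is the graph of a homomorphism on its image,
surjective on `A₈` and with a small bound on `C`, gives a surjection `C → A₈` with kernel of order two.  Explicit
elements then give the classification of the involutions of the whole group.
-/

set_option autoImplicit false

namespace Cfsg.Agent.Lib.KnownSimple.McLInv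

open Subgroup Cfsg
open scoped commutatorElement Pointwise

/-- The alternating group of degree eight. -/
abbrev A₈ : Type := ↥(alternatingGroup (Fin 8))

theorem card_A₈ : Nat.card A₈ = 20160 := by
  rw [nat_card_alternatingGroup]
  simp [Nat.factorial]

theorem fac2' (a b : ℕ) (hb : b % 2 = 1) : (2 ^ a * b).factorization 2 = a := by
  have hb0 : b ≠ 0 := by omega
  rw [Nat.factorization_mul (by positivity) hb0, Nat.Prime.factorization_pow Nat.prime_two]
  have h : ¬ 2 ∣ b := by omega
  simp [Nat.factorization_eq_zero_of_not_dvd h]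

/-- Many conjugates: a bound for the centraliser. -/
theorem card_centralizer_le' {J : Type*} [Group J] [Finite J] {m c : ℕ} (t : J) (u : Fin m → J)
    (hu : ∀ i j, u i * t * (u i)⁻¹ = u j * t * (u j)⁻¹ → i = j) (hc : Nat.card J = m * c) (hm : 0 < m) :
    Nat.card (centralizer ({t} : Set J)) ≤ c := by
  classical
  let C := centralizer ({t} : Set J)
  let f : Fin m → J ⧸ C := fun i => QuotientGroup.mk (u i)
  have hf : Function.Injective f := by
    intro i j h
    have h1 : (u i)⁻¹ * u j ∈ C := QuotientGroup.eq.1 h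
    have h2 := Subgroup.mem_centralizer_iff.1 h1 t rfl
    apply hu
    have h3 : u i * ((u i)⁻¹ * u j) * t * ((u i)⁻¹ * u j)⁻¹ * (u i)⁻¹ = u i * t * (u i)⁻¹ := by
      rw [mul_assoc (u i), ← h2]
      group
    rw [← h3]
    group
  have h1 : m ≤ Nat.card (J ⧸ C) := by
    have := Nat.card_le_card_of_injective f hf
    rwa [Nat.card_fin] at this
  have h2 : Nat.card C * C.index = Nat.card J := Subgroup.card_mul_index C
  have h3 : C.index = Nat.card (J ⧸ C) := rfl
  rw [← h3] at h1
  rw [hc] at h2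
  by_contra h4
  push Not at h4
  have h5 : m * c < C.index * Nat.card C := by
    have h6 : 0 < C.index := by omega
    calc m * c ≤ C.index * c := Nat.mul_le_mul_right _ h1
      _ < C.index * Nat.card C := Nat.mul_lt_mul_of_pos_left h4 (by omega)
  rw [mul_comm C.index] at h5
  omega

/-! ### Involutions of `A₈` -/

theorem cycleType_of_sq {y : Equiv.Perm (Fin 8)} (hy : y * y = 1) :
    y.cycleType = Multiset.replicate (y.support.card / 2) 2 := by
  have h2 : ∀ n ∈ y.cycleType, n = 2 := by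
    intro n hn
    have h3 : n ∣ orderOf y := Equiv.Perm.dvd_of_mem_cycleType hn
    have h4 : orderOf y ∣ 2 := orderOf_dvd_of_pow_eq_one (by rw [pow_two]; exact hy)
    have h5 := Equiv.Perm.two_le_of_mem_cycleType hn
    have h6 := Nat.le_of_dvd (by norm_num) (h3.trans h4)
    omega
  have h7 := Multiset.eq_replicate_card.2 h2
  have h8 : y.cycleType.sum = y.support.card := Equiv.Perm.sum_cycleType y
  rw [h7, Multiset.sum_replicate, smul_eq_mul] at h8
  have h9 : Multiset.card y.cycleType = y.support.card / 2 := by omega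
  rw [← h9]
  exact h7

theorem support_cases (y : A₈) (hy : y * y = 1) (hy1 : y ≠ 1) :
    (y : Equiv.Perm (Fin 8)).support.card = 4 ∨ (y : Equiv.Perm (Fin 8)).support.card = 8 := by
  have hy' : (y : Equiv.Perm (Fin 8)) * y = 1 := congrArg Subtype.val hy
  have h1 := cycleType_of_sq hy'
  have h2 : Equiv.Perm.sign (y : Equiv.Perm (Fin 8)) = 1 := Equiv.Perm.mem_alternatingGroup.1 y.2
  rw [Equiv.Perm.sign_of_cycleType, h1, Multiset.sum_replicate, Multiset.card_replicate, smul_eq_mul] at h2
  have h3 : (y : Equiv.Perm (Fin 8)).support.card ≤ 8 := by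
    have := Finset.card_le_univ (y : Equiv.Perm (Fin 8)).support
    simpa using this
  have h8 : (y : Equiv.Perm (Fin 8)).cycleType.sum = (y : Equiv.Perm (Fin 8)).support.card :=
    Equiv.Perm.sum_cycleType _
  rw [h1, Multiset.sum_replicate, smul_eq_mul] at h8
  have h4 : (y : Equiv.Perm (Fin 8)).support.card ≠ 0 := by
    intro h5
    apply hy1
    apply Subtype.ext
    exact Equiv.Perm.support_eq_empty_iff.1 (Finset.card_eq_zero.1 h5)
  set k := (y : Equiv.Perm (Fin 8)).support.card with hk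
  have h5 : k = 2 ∨ k = 4 ∨ k = 6 ∨ k = 8 := by omega
  rcases h5 with h | h | h | h
  · rw [h] at h2
    exact absurd h2 (by decide)
  · exact Or.inl h
  · rw [h] at h2
    exact absurd h2 (by decide)
  · exact Or.inr h

theorem conj_A₈ (y a : A₈) (hy : y * y = 1) (ha : a * a = 1) (hy1 : y ≠ 1)
    (hc : (y : Equiv.Perm (Fin 8)).support.card = (a : Equiv.Perm (Fin 8)).support.card) : IsConj y a := by
  have hy' : (y : Equiv.Perm (Fin 8)) * y = 1 := congrArg Subtype.val hy
  have ha' : (a : Equiv.Perm (Fin 8)) * a = 1 := congrArg Subtype.val ha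
  have h1 : IsConj (y : Equiv.Perm (Fin 8)) (a : Equiv.Perm (Fin 8)) := by
    rw [Equiv.Perm.isConj_iff_cycleType_eq, cycleType_of_sq hy', cycleType_of_sq ha', hc]
  obtain ⟨π, hπ⟩ := isConj_iff.1 h1
  have hne : (y : Equiv.Perm (Fin 8)) ≠ 1 := fun h => hy1 (Subtype.ext h)
  obtain ⟨u, hu⟩ : ∃ u, (y : Equiv.Perm (Fin 8)) u ≠ u := by
    by_contra h
    push Not at h
    exact hne (Equiv.ext h)
  have hyy : ∀ x, (y : Equiv.Perm (Fin 8)) ((y : Equiv.Perm (Fin 8)) x) = x := fun x => by
    have := congrArg (fun f : Equiv.Perm (Fin 8) => f x) hy'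
    simpa using this
  let s : Equiv.Perm (Fin 8) := Equiv.swap u ((y : Equiv.Perm (Fin 8)) u)
  have hs : (y : Equiv.Perm (Fin 8)) * s * (y : Equiv.Perm (Fin 8))⁻¹ = s := by
    have h2 := Equiv.swap_apply_apply (y : Equiv.Perm (Fin 8)) u ((y : Equiv.Perm (Fin 8)) u)
    rw [hyy, Equiv.swap_comm] at h2
    exact h2.symm
  have hsign : Equiv.Perm.sign s = -1 := Equiv.Perm.sign_swap hu.symm
  rcases Int.units_eq_one_or (Equiv.Perm.sign π) with h | h
  · exact isConj_iff.2 ⟨⟨π, Equiv.Perm.mem_alternatingGroup.2 h⟩, Subtype.ext hπ⟩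
  · refine isConj_iff.2 ⟨⟨π * s, Equiv.Perm.mem_alternatingGroup.2 ?_⟩, Subtype.ext ?_⟩
    · rw [map_mul, h, hsign]
      decide
    · show π * s * (y : Equiv.Perm (Fin 8)) * (π * s)⁻¹ = a
      have h3 : s * (y : Equiv.Perm (Fin 8)) = (y : Equiv.Perm (Fin 8)) * s := by
        have h4 : (y : Equiv.Perm (Fin 8)) * s = s * (y : Equiv.Perm (Fin 8)) := by
          have h5 := congrArg (· * (y : Equiv.Perm (Fin 8))) hs
          simpa [mul_assoc] using h5
        exact h4.symm
      rw [← hπ, mul_inv_rev, mul_assoc π s, h3]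
      group

theorem center_A₈ (y : A₈) (h : ∀ y', y * y' = y' * y) : y = 1 := by
  have h1 : y ∈ Subgroup.center A₈ := Subgroup.mem_center_iff.2 fun g => (h g).symm
  rw [alternatingGroup.center_eq_bot (by simp)] at h1
  exact Subgroup.mem_bot.1 h1

/-! ### The graph -/

section abstract

variable {J : Type*} [Group J] [Finite J]

theorem exists_psi (t : J) (ht : t ≠ 1)
    (hC : Nat.card (centralizer ({t} : Set J)) ≤ 40320)
    (Γ : Subgroup (↥(centralizer ({t} : Set J)) × A₈))
    (h1 : ∀ σ : A₈, ((1 : ↥(centralizer ({t} : Set J))), σ) ∈ Γ → σ = 1)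
    (hs : ∀ σ : A₈, ∃ c, (c, σ) ∈ Γ)
    (z : ↥(centralizer ({t} : Set J))) (hz : (z : J) = t) (hz1 : (z, (1 : A₈)) ∈ Γ) :
    ∃ ψ : ↥(centralizer ({t} : Set J)) →* A₈, Function.Surjective ψ ∧
      (∀ x, ψ x = 1 ↔ x = 1 ∨ x = z) ∧ (∀ c σ, (c, σ) ∈ Γ → ψ c = σ) ∧
      Nat.card (centralizer ({t} : Set J)) = 40320 := by
  classical
  let p1 : ↥Γ →* ↥(centralizer ({t} : Set J)) := (MonoidHom.fst _ _).comp Γ.subtype
  let p2 : ↥Γ →* A₈ := (MonoidHom.snd _ _).comp Γ.subtype
  have hp1 : Function.Injective p1 := by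
    rw [injective_iff_map_eq_one]
    rintro ⟨⟨c, σ⟩, h⟩ hc
    have hc' : c = 1 := hc
    subst hc'
    have := h1 σ h
    subst this
    rfl
  have hp2 : Function.Surjective p2 := by
    intro σ
    obtain ⟨c, hc⟩ := hs σ
    exact ⟨⟨(c, σ), hc⟩, rfl⟩
  have hz' : z ≠ 1 := by
    intro h
    apply ht
    rw [← hz, h]
    rfl
  have hcΓ : Nat.card Γ ≤ 40320 := (Nat.card_le_card_of_injective p1 hp1).trans hC
  have hKer : Nat.card p2.ker * 20160 = Nat.card Γ := by
    have h2 := Subgroup.card_mul_index p2.ker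
    rw [Subgroup.index_ker, MonoidHom.range_eq_top.2 hp2, Subgroup.card_top, card_A₈] at h2
    exact h2
  let zz : ↥p2.ker := ⟨⟨(z, 1), hz1⟩, rfl⟩
  have hzz : zz ≠ 1 := by
    intro h
    have h2 : ((zz : ↥Γ) : ↥(centralizer ({t} : Set J)) × A₈).1 = 1 := by
      rw [h]
      rfl
    exact hz' h2
  have hcK : Nat.card p2.ker = 2 := by
    haveI : Nontrivial ↥p2.ker := ⟨⟨zz, 1, hzz⟩⟩
    have h2 : 1 < Nat.card p2.ker := Finite.one_lt_card_iff_nontrivial.2 inferInstance
    omega
  have hcard : Nat.card Γ = 40320 := by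
    rw [← hKer, hcK]
  have hb : Function.Bijective p1 := hp1.bijective_of_nat_card_le (by rw [hcard]; exact hC)
  let e : ↥Γ ≃* ↥(centralizer ({t} : Set J)) := MulEquiv.ofBijective p1 hb
  have he : ∀ c σ (h : (c, σ) ∈ Γ), e.symm c = ⟨(c, σ), h⟩ := by
    intro c σ h
    rw [MulEquiv.symm_apply_eq]
    rfl
  let ψ : ↥(centralizer ({t} : Set J)) →* A₈ := p2.comp e.symm.toMonoidHom
  have hψ : ∀ c σ, (c, σ) ∈ Γ → ψ c = σ := by
    intro c σ h
    show p2 (e.symm c) = σ
    rw [he c σ h]
    rfl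
  refine ⟨ψ, ?_, ?_, hψ, ?_⟩
  · intro σ
    obtain ⟨c, hc⟩ := hs σ
    exact ⟨c, hψ c σ hc⟩
  · intro x
    constructor
    · intro hx
      obtain ⟨u, hu, huniq⟩ := (Nat.card_eq_two_iff' (1 : ↥p2.ker)).1 hcK
      have hx2 : p2 (e.symm x) = 1 := hx
      let y : ↥p2.ker := ⟨e.symm x, hx2⟩
      by_cases hy : y = 1
      · left
        have h2 : e.symm x = 1 := congrArg Subtype.val hy
        have h3 := congrArg e h2
        rwa [MulEquiv.apply_symm_apply, map_one] at h3
      · right
        have h2 : y = zz := (huniq y hy).trans (huniq zz hzz).symm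
        have h3 : e.symm x = ⟨(z, 1), hz1⟩ := congrArg Subtype.val h2
        have h4 := congrArg e h3
        rw [MulEquiv.apply_symm_apply] at h4
        exact h4
    · rintro (rfl | rfl)
      · exact map_one ψ
      · exact hψ _ _ hz1
  · rw [← Nat.card_congr e.toEquiv, hcard]

/-- The structure of the centraliser and of the involutions. -/
theorem abs_final (hJ : Nat.card J = 898128000) (t : J) (ht : t ≠ 1) (htt : t * t = 1)
    (hC : Nat.card (centralizer ({t} : Set J)) ≤ 40320)
    (Γ : Subgroup (↥(centralizer ({t} : Set J)) × A₈))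
    (h1 : ∀ σ : A₈, ((1 : ↥(centralizer ({t} : Set J))), σ) ∈ Γ → σ = 1)
    (hs : ∀ σ : A₈, ∃ c, (c, σ) ∈ Γ)
    (z : ↥(centralizer ({t} : Set J))) (hz : (z : J) = t) (hz1 : (z, (1 : A₈)) ∈ Γ)
    (c : ↥(centralizer ({t} : Set J))) (a4 : A₈) (hc : (c, a4) ∈ Γ) (hcc : c * c = z)
    (ha4 : (a4 : Equiv.Perm (Fin 8)).support.card = 4)
    (s : ↥(centralizer ({t} : Set J))) (a8 : A₈) (hs' : (s, a8) ∈ Γ) (hss : s * s = 1)
    (ha8 : (a8 : Equiv.Perm (Fin 8)).support.card = 8)
    (hsc : IsConj (s : J) t) (hsc2 : IsConj ((z * s : ↥(centralizer ({t} : Set J))) : J) t)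
    (d : ↥(centralizer ({t} : Set J))) (hd : ⁅d, c⁆ = z) :
    (∀ x y : J, orderOf x = 2 → orderOf y = 2 → IsConj x y) ∧
    ∃ (ψ : ↥(centralizer ({t} : Set J)) →* A₈), Function.Surjective ψ ∧
      (∀ x, ψ x = 1 ↔ x = 1 ∨ x = z) := by
  classical
  obtain ⟨ψ, hsurj, hker, hψ, hcC⟩ := exists_psi t ht hC Γ h1 hs z hz hz1
  refine ⟨?_, ψ, hsurj, hker⟩
  have hzc : ∀ a : ↥(centralizer ({t} : Set J)), z * a = a * z := by
    intro a
    apply Subtype.ext
    show (z : J) * a = a * z
    rw [hz]
    exact Subgroup.mem_centralizer_iff.1 a.2 t rfl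
  have hzz : z * z = 1 := by
    apply Subtype.ext
    show (z : J) * z = 1
    rw [hz, htt]
  have hz1' : z ≠ 1 := by
    intro h
    apply ht
    rw [← hz, h]
    rfl
  have hψc : ψ c = a4 := hψ _ _ hc
  have hψs : ψ s = a8 := hψ _ _ hs'
  have hψz : ψ z = 1 := (hker z).2 (Or.inr rfl)
  have key : ∀ y : ↥(centralizer ({t} : Set J)), y * y = 1 → y ≠ 1 → IsConj (y : J) t := by
    intro y hyy hy1
    by_cases hy2 : ψ y = 1
    · rcases (hker y).1 hy2 with h | h
      · exact absurd h hy1
      · rw [h, hz]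
    have hy3 : ψ y * ψ y = 1 := by rw [← map_mul, hyy, map_one]
    rcases support_cases (ψ y) hy3 hy2 with h4 | h8
    · have ha : a4 * a4 = 1 := by rw [← hψc, ← map_mul, hcc, hψz]
      obtain ⟨w₀, hw₀⟩ := isConj_iff.1 (conj_A₈ (ψ y) a4 hy3 ha hy2 (h4.trans ha4.symm))
      obtain ⟨w, rfl⟩ := hsurj w₀
      have h5 : ψ (w * y * w⁻¹ * c⁻¹) = 1 := by
        rw [map_mul, map_mul, map_mul, map_inv, map_inv, hw₀, hψc, mul_inv_cancel]
      have hsq : (w * y * w⁻¹) * (w * y * w⁻¹) = 1 := by
        calc (w * y * w⁻¹) * (w * y * w⁻¹) = w * (y * y) * w⁻¹ := by group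
          _ = 1 := by rw [hyy]; group
      exfalso
      rcases (hker _).1 h5 with h | h
      · have e : w * y * w⁻¹ = c := mul_inv_eq_one.1 h
        rw [e, hcc] at hsq
        exact hz1' hsq
      · have e : w * y * w⁻¹ = z * c := mul_inv_eq_iff_eq_mul.1 h
        rw [e] at hsq
        have h6 : z * c * (z * c) = z * z * (c * c) := by
          rw [mul_assoc z c, ← mul_assoc c z c, ← hzc c, mul_assoc z c c, mul_assoc]
        rw [h6, hzz, one_mul, hcc] at hsq
        exact hz1' hsq
    · have ha : a8 * a8 = 1 := by rw [← hψs, ← map_mul, hss, map_one]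
      obtain ⟨w₀, hw₀⟩ := isConj_iff.1 (conj_A₈ (ψ y) a8 hy3 ha hy2 (h8.trans ha8.symm))
      obtain ⟨w, rfl⟩ := hsurj w₀
      have h5 : ψ (w * y * w⁻¹ * s⁻¹) = 1 := by
        rw [map_mul, map_mul, map_mul, map_inv, map_inv, hw₀, hψs, mul_inv_cancel]
      have hconj : IsConj (y : J) ((w * y * w⁻¹ : ↥(centralizer ({t} : Set J))) : J) :=
        isConj_iff.2 ⟨(w : J), rfl⟩
      refine hconj.trans ?_
      rcases (hker _).1 h5 with h | h
      · have e : w * y * w⁻¹ = s := mul_inv_eq_one.1 h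
        rw [e]
        exact hsc
      · have e : w * y * w⁻¹ = z * s := mul_inv_eq_iff_eq_mul.1 h
        rw [e]
        exact hsc2
  have hall : ∀ x : J, orderOf x = 2 → IsConj x t := by
    intro x hx
    haveI : Fact (Nat.Prime 2) := ⟨Nat.prime_two⟩
    obtain ⟨R⟩ : Nonempty (Sylow 2 ↥(centralizer ({t} : Set J))) := inferInstance
    have hR : Nat.card R = 2 ^ 7 := by
      rw [Sylow.card_eq_multiplicity, hcC]
      congr 1
      have e : 40320 = 2 ^ 7 * 315 := by norm_num
      rw [e]
      exact fac2' 7 315 rfl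
    let R' : Subgroup J := (R : Subgroup ↥(centralizer ({t} : Set J))).map (centralizer ({t} : Set J)).subtype
    have hR' : Nat.card R' = 2 ^ (Nat.card J).factorization 2 := by
      have h1 : Nat.card R' = Nat.card R := Nat.card_congr
        (Subgroup.equivMapOfInjective (R : Subgroup ↥(centralizer ({t} : Set J))) _ (centralizer ({t} : Set J)).subtype_injective).toEquiv.symm
      rw [h1, hR, hJ]
      congr 1
      have e : 898128000 = 2 ^ 7 * 7016625 := by norm_num
      rw [e]
      exact (fac2' 7 7016625 rfl).symm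
    let S : Sylow 2 J := Sylow.ofCard R' hR'
    have hzp : IsPGroup 2 (zpowers x) := IsPGroup.of_card (n := 1) (by rw [Nat.card_zpowers, hx]; norm_num)
    obtain ⟨P, hP⟩ := hzp.exists_le_sylow
    obtain ⟨g, hg⟩ := MulAction.exists_smul_eq J P S
    have hxP : x ∈ (P : Subgroup J) := hP (mem_zpowers x)
    have hy : g * x * g⁻¹ ∈ R' := by
      have h1 : MulAut.conj g • x ∈ MulAut.conj g • (P : Subgroup J) :=
        Subgroup.smul_mem_pointwise_smul x (MulAut.conj g) _ hxP
      have h2 : MulAut.conj g • (P : Subgroup J) = R' := by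
        rw [← Sylow.coe_subgroup_smul, hg]
        rfl
      rw [h2] at h1
      exact h1
    obtain ⟨y, _, hyv⟩ := hy
    have hyv' : (y : J) = g * x * g⁻¹ := hyv
    have hxx : x * x = 1 := by
      have := pow_orderOf_eq_one x
      rwa [hx, pow_two] at this
    have hx1 : x ≠ 1 := by
      rintro rfl
      rw [orderOf_one] at hx
      norm_num at hx
    have hyy : y * y = 1 := by
      apply Subtype.ext
      show (y : J) * y = 1
      rw [hyv']
      calc g * x * g⁻¹ * (g * x * g⁻¹) = g * (x * x) * g⁻¹ := by group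
        _ = 1 := by rw [hxx]; group
    have hy1 : y ≠ 1 := by
      intro h
      apply hx1
      have h2 : g * x * g⁻¹ = 1 := by
        rw [← hyv', h]
        rfl
      have : x = g⁻¹ * (g * x * g⁻¹) * g := by group
      rw [this, h2]
      group
    have h3 := key y hyy hy1
    rw [hyv'] at h3
    exact (isConj_iff.2 ⟨g, rfl⟩ : IsConj x (g * x * g⁻¹)).trans h3
  intro x y hx hy
  exact (hall x hx).trans (hall y hy).symm

end abstract

/-- The centraliser under an isomorphism. -/
def centEquiv {A B : Type*} [Group A] [Group B] (e : A ≃* B) (t : A) :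
    ↥(centralizer ({t} : Set A)) ≃* ↥(centralizer ({e t} : Set B)) where
  toFun x := ⟨e x, by
    refine Subgroup.mem_centralizer_iff.2 ?_
    intro h hh
    have hh' : h = e t := hh
    rw [hh', ← map_mul, ← map_mul, Subgroup.mem_centralizer_iff.1 x.2 t rfl]⟩
  invFun x := ⟨e.symm x, by
    refine Subgroup.mem_centralizer_iff.2 ?_
    intro h hh
    have hh' : h = t := hh
    rw [hh']
    apply e.injective
    rw [map_mul, map_mul, e.apply_symm_apply, Subgroup.mem_centralizer_iff.1 x.2 (e t) rfl]⟩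
  left_inv x := Subtype.ext (e.symm_apply_apply _)
  right_inv x := Subtype.ext (e.apply_symm_apply _)
  map_mul' x y := Subtype.ext (map_mul e _ _)

end Cfsg.Agent.Lib.KnownSimple.McLInv
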