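import Cfsg.Agent.Lib.KnownSimple.Leech.McL.InvDefs

/-!
# The McLaughlin group: checks of the conjugates of an involution
-/

set_option autoImplicit false

namespace Cfsg.Agent.Lib.KnownSimple.McLInv

open Cfsg Cfsg.Spor Cfsg.Agent.Lib.Compute Cfsg.Agent.Lib.KnownSimple.PE Cfsg.Agent.Lib.KnownSimple.Leech

set_option maxRecDepth 100000 in
theorem cCls0 : chunk clsChk 2475 0 = true := by decide +kernel
set_option maxRecDepth 100000 in
theorem cCls1 : chunk clsChk 2475 1 = true := by decide +kernel
set_option maxRecDepth 100000 in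
theorem cCls2 : chunk clsChk 2475 2 = true := by decide +kernel
set_option maxRecDepth 100000 in
theorem cCls3 : chunk clsChk 2475 3 = true := by decide +kernel
set_option maxRecDepth 100000 in
theorem cCls4 : chunk clsChk 2475 4 = true := by decide +kernel
set_option maxRecDepth 100000 in
theorem cCls5 : chunk clsChk 2475 5 = true := by decide +kernel
set_option maxRecDepth 100000 in
theorem cCls6 : chunk clsChk 2475 6 = true := by decide +kernel
set_option maxRecDepth 100000 in
theorem cCls7 : chunk clsChk 2475 7 = true := by decide +kernel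
set_option maxRecDepth 100000 in
theorem cCls8 : chunk clsChk 2475 8 = true := by decide +kernel

theorem gChk0 : allBelow (genChk 0) 2025 = true := by decide +kernel
theorem gChk1 : allBelow (genChk 1) 2025 = true := by decide +kernel
theorem gChk2 : allBelow (genChk 2) 2025 = true := by decide +kernel
theorem gChk3 : allBelow (genChk 3) 2025 = true := by decide +kernel

theorem sepChk : ∀ a b c d : Fin 8, a ≠ b → (∀ p ∈ Cfsg.Agent.Lib.KnownSimple.McLInvData.pL, Rn p c.val d.val = Rn p a.val b.val) →
    (c = a ∧ d = b) ∨ (c = b ∧ d = a) := by decide +kernel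

theorem pLfix : ∀ p ∈ Cfsg.Agent.Lib.KnownSimple.McLInvData.pL, p < 2025 ∧ Tc 9 p = p := by decide +kernel

theorem threeChk : ∀ a b c : Fin 8, a ≠ b → a ≠ c → b ≠ c → wP (w3 a b c) = Equiv.swap a b * Equiv.swap a c := by
  decide +kernel

theorem commChk : ∀ k, k < 4 → wEqT (gwF k ++ [9]) ([9] ++ gwF k) = true := by decide +kernel

theorem sqC : wEqT (flatW gwF [2, 0, 2, 0] ++ flatW gwF [2, 0, 2, 0]) [9] = true := by decide +kernel
theorem sqS : wEqT (flatW gwF [2] ++ flatW gwF [2]) [] = true := by decide +kernel
theorem comDC : wEqT (flatW gwF [0, 2, 0, 0, 2, 0, 0] ++ flatW gwF [2, 0, 2, 0])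
    ([9] ++ flatW gwF [2, 0, 2, 0] ++ flatW gwF [0, 2, 0, 0, 2, 0, 0]) = true := by decide +kernel
theorem cjS : wEqT ([1, 12, 13, 2] ++ [9]) (flatW gwF [2] ++ [1, 12, 13, 2]) = true := by decide +kernel
theorem cjZS : wEqT ([2, 11] ++ [9]) (([9] ++ flatW gwF [2]) ++ [2, 11]) = true := by decide +kernel
theorem invChk : ∀ k, k < 21 → okK k = true → wEqT [invK k, k] [] = true := by decide +kernel
theorem sqT : wEqT [9, 9] [] = true := by decide +kernel
theorem notOne : wEqT [9] [] = false := by decide +kernel

theorem supC : (wP [2, 0, 2, 0]).support.card = 4 := by decide +kernel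
theorem supS : (wP [2]).support.card = 8 := by decide +kernel

end Cfsg.Agent.Lib.KnownSimple.McLInv
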