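import Cfsg.Agent.Lib.KnownSimple.Leech.McL.Main
import Cfsg.Agent.Lib.KnownSimple.Leech.McL.InvData
import Cfsg.Agent.Lib.KnownSimple.Leech.McL.InvAbs
import Cfsg.Agent.Lib.KnownSimple.Leech.Big

/-!
# The McLaughlin group: words for an involution centraliser, and the conjugates of the involution
-/

set_option autoImplicit false

namespace Cfsg.Agent.Lib.KnownSimple.McLInv

open Cfsg Cfsg.Spor Cfsg.Agent.Lib.Compute Cfsg.Agent.Lib.Golay Cfsg.Agent.Lib.KnownSimple.PE
open Cfsg.Agent.Lib.KnownSimple Cfsg.Agent.Lib.KnownSimple.AutRigid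
open Cfsg.Agent.Lib.KnownSimple.Leech Cfsg.Agent.Lib.KnownSimple.Leech.McLData
open Cfsg.Agent.Lib.KnownSimple.Leech.McL (pq N)
open Cfsg.Agent.Lib.KnownSimple.McLInvData

/-- The tables of the generators. -/
noncomputable def tL : List ℕ := [t0, t0, ti0, t1, ti1, t2, ti2, t3, ti3, t4, ti4, t5, ti5, t6, ti6, t7, ti7, t8, ti8, t9, ti9]

/-- A table of a generator, the identity for numbers which are not those of generators. -/
noncomputable def Tc (k i : ℕ) : ℕ := bcond (Nat.blt k 21) (pq (lgetD 0 tL k) i) i

/-- The code of a word. -/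
noncomputable def wE (l : List ℕ) (i : ℕ) : ℕ := List.rec i (fun k _ ih => force ih (Tc k)) l

/-- The inverses of the generators. -/
def invKL : List ℕ := [0, 2, 1, 4, 3, 6, 5, 8, 7, 10, 9, 12, 11, 14, 13, 16, 15, 18, 17, 20, 19]
/-- The inverse of a generator. -/
noncomputable def invK (k : ℕ) : ℕ := lgetD 0 invKL k
/-- The mask of the generators with inverses. -/
def okMask : ℕ := 2097150
/-- Is this a generator with an inverse? -/
noncomputable def okK (k : ℕ) : Bool := Nat.beq (Nat.land (Nat.shiftRight okMask k) 1) 1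

/-- The code of the inverse of a word. -/
noncomputable def wI (l : List ℕ) : ℕ → ℕ := List.rec (fun i => i) (fun k _ ih i => force (Tc (invK k) i) ih) l

/-- The code of a conjugate of the involution. -/
noncomputable def evC (l : List ℕ) (p : ℕ) : ℕ := wE l (force (wI l p) (Tc 9))

/-- The key of a conjugate of the involution. -/
noncomputable def keyC (l : List ℕ) : ℕ :=
  Nat.add (Nat.mul (Nat.add (Nat.mul (Nat.add (Nat.mul (evC l 17) 2025) (evC l 1234)) 2025) (evC l 777)) 2025) (evC l 1999)

/-- The entries of the table of conjugates of the involution. -/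
noncomputable def clE (i : ℕ) : ℕ := pgetB 80 1208925819614629174706175 10 1023 clB i
/-- The key of an entry. -/
noncomputable def clK (i : ℕ) : ℕ := Nat.land (clE i) 17592186044415
/-- Decoding a word. -/
noncomputable def decW (W : ℕ) : List ℕ :=
  Nat.rec (fun _ => []) (fun _ ih W => bcond (Nat.beq (Nat.land W 63) 0) [] (Nat.land W 63 :: ih (Nat.shiftRight W 6))) 8 W
/-- The word of an entry. -/
noncomputable def clW (i : ℕ) : List ℕ := decW (Nat.shiftRight (clE i) 44)

/-- A test on all the letters of a word. -/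
noncomputable def allOk (l : List ℕ) : Bool := allL okK l

/-- The check of an entry. -/
noncomputable def clsChk (i : ℕ) : Bool :=
  bcond (allOk (clW i))
    (bcond (Nat.beq (keyC (clW i)) (clK i))
      (bcond (Nat.beq i 22274) true (Nat.blt (clK i) (clK (Nat.succ i)))) false) false

/-- Equality of words on the base. -/
noncomputable def wEqT (l₁ l₂ : List ℕ) : Bool :=
  allL (fun b => Nat.beq (wE l₁ b) (wE l₂ b)) Cfsg.Agent.Lib.KnownSimple.Leech.McL.baseAll

/-- Substitution in a word. -/
noncomputable def flatW (aw : ℕ → List ℕ) (l : List ℕ) : List ℕ := List.rec [] (fun k _ ih => aw k ++ ih) l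

/-- The words of the generators of the centraliser. -/
def gwF : ℕ → List ℕ
  | 0 => [7]
  | 1 => [9]
  | 2 => [15]
  | 3 => [11, 15, 12]
  | _ => []

/-- The partition of the letters labelling a point. -/
noncomputable def mk (p : ℕ) : ℕ := pget 8 255 mT p

/-- Are two letters in the same part? -/
noncomputable def Rn (p a b : ℕ) : Bool :=
  Nat.beq (Nat.land (Nat.shiftRight (mk p) a) 1) (Nat.land (Nat.shiftRight (mk p) b) 1)

/-- The generators on the letters. -/
def s0 : Equiv.Perm (Fin 8) :=
  ⟨![0, 3, 1, 7, 2, 5, 6, 4], ![0, 2, 4, 1, 7, 5, 6, 3], by intro x; revert x; decide, by intro x; revert x; decide⟩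
/-- The generators on the letters. -/
def s2 : Equiv.Perm (Fin 8) :=
  ⟨![5, 6, 4, 7, 2, 0, 1, 3], ![5, 6, 4, 7, 2, 0, 1, 3], by intro x; revert x; decide, by intro x; revert x; decide⟩
/-- The generators on the letters. -/
def s3 : Equiv.Perm (Fin 8) :=
  ⟨![1, 0, 3, 2, 7, 6, 5, 4], ![1, 0, 3, 2, 7, 6, 5, 4], by intro x; revert x; decide, by intro x; revert x; decide⟩

/-- The generators on the letters. -/
def sP : ℕ → Equiv.Perm (Fin 8)
  | 0 => s0
  | 1 => 1
  | 2 => s2
  | 3 => s3
  | _ => 1

/-- The value of a word on the letters. -/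
def wP (l : List ℕ) : Equiv.Perm (Fin 8) := (l.map sP).prod

/-- The word of a three-cycle. -/
def w3 (a b c : Fin 8) : List ℕ := (w3L.getD (a.val * 64 + b.val * 8 + c.val) [])

/-- The check of a generator on the fixed points of the involution. -/
noncomputable def genChk (k p : ℕ) : Bool :=
  bcond (Nat.beq (Tc 9 p) p)
    (decide (∀ a b : Fin 8, Rn (wE (gwF k) p) (sP k a).val (sP k b).val = Rn p a.val b.val)) true

end Cfsg.Agent.Lib.KnownSimple.McLInv
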