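import Cfsg.Agent.Lib.KnownSimple.Leech.McL.InvChk

/-!
# The McLaughlin group: involutions

All involutions are conjugate, and the centraliser of an involution is a non-split double cover of `A₈`.
-/

set_option autoImplicit false

namespace Cfsg.Agent.Lib.KnownSimple.McLInv

open Cfsg Cfsg.Spor Cfsg.Agent.Lib.Compute Cfsg.Agent.Lib.Golay Cfsg.Agent.Lib.KnownSimple.PE
open Cfsg.Agent.Lib.KnownSimple Cfsg.Agent.Lib.KnownSimple.AutRigid
open Cfsg.Agent.Lib.KnownSimple.Leech Cfsg.Agent.Lib.KnownSimple.Leech.McLData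
open Cfsg.Agent.Lib.KnownSimple.Leech.McL
open Cfsg.Agent.Lib.KnownSimple.McLInvData
open Subgroup
open scoped commutatorElement

theorem force_eq {β : Type} (n : ℕ) (f : ℕ → β) : force n f = f n := by
  cases n <;> rfl

/-- The generators of the group. -/
noncomputable def gG : ℕ → G
  | 0 => D0
  | 1 => D0
  | 2 => D0⁻¹
  | 3 => D1
  | 4 => D1⁻¹
  | 5 => D2
  | 6 => D2⁻¹
  | 7 => D3
  | 8 => D3⁻¹
  | 9 => D4
  | 10 => D4⁻¹
  | 11 => D5
  | 12 => D5⁻¹
  | 13 => D6
  | 14 => D6⁻¹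
  | 15 => D7
  | 16 => D7⁻¹
  | 17 => D8
  | 18 => D8⁻¹
  | 19 => D9
  | 20 => D9⁻¹
  | _ => 1

theorem gG_code (k : ℕ) : E.IsCode ((gG k : G) : Equiv.Perm (Fin N)) (Tc k) := by
  by_cases h : k < 21
  · have e : Nat.blt k 21 = true := by simpa [Nat.blt_eq] using h
    have e2 : Tc k = pq (lgetD 0 tL k) := by
      funext i
      unfold Tc
      rw [e, bcond_true]
    rw [e2]
    interval_cases k
    · exact code_D0
    · exact code_D0
    · exact codei_D0
    · exact code_D1
    · exact codei_D1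
    · exact code_D2
    · exact codei_D2
    · exact code_D3
    · exact codei_D3
    · exact code_D4
    · exact codei_D4
    · exact code_D5
    · exact codei_D5
    · exact code_D6
    · exact codei_D6
    · exact code_D7
    · exact codei_D7
    · exact code_D8
    · exact codei_D8
    · exact code_D9
    · exact codei_D9
  · have e : Nat.blt k 21 = false := by
      rw [Bool.eq_false_iff]
      intro h2
      exact h (by simpa [Nat.blt_eq] using h2)
    have e2 : Tc k = fun i => i := by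
      funext i
      unfold Tc
      rw [e, bcond_false]
    obtain ⟨n, rfl⟩ : ∃ n, k = n + 21 := ⟨k - 21, by omega⟩
    rw [e2]
    intro a
    rfl

/-- The value of a word. -/
noncomputable def wG (l : List ℕ) : G := (l.map gG).prod

@[simp] theorem wG_nil : wG [] = 1 := rfl

theorem wG_cons (k : ℕ) (l : List ℕ) : wG (k :: l) = gG k * wG l := by
  simp [wG]

theorem wG_append (l₁ l₂ : List ℕ) : wG (l₁ ++ l₂) = wG l₁ * wG l₂ := by
  simp [wG]

theorem wE_cons (k : ℕ) (l : List ℕ) (i : ℕ) : wE (k :: l) i = Tc k (wE l i) :=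
  force_eq _ _

theorem wG_code (l : List ℕ) : E.IsCode ((wG l : G) : Equiv.Perm (Fin N)) (wE l) := by
  induction l with
  | nil => intro a; rfl
  | cons k l ih =>
    rw [wG_cons]
    have h := coe_code_mul (gG_code k) ih
    intro a
    rw [wE_cons]
    exact h a

theorem wG_eq {l₁ l₂ : List ℕ} (h : wEqT l₁ l₂ = true) : wG l₁ = wG l₂ := by
  apply Subtype.ext
  refine eq_of_base based_all hbl (wG l₁).2 (wG l₂).2 (wG_code l₁) (wG_code l₂) ?_
  intro b hb
  exact Nat.eq_of_beq_eq_true (allL_iff.1 h b hb)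

theorem code_apply {σ : Equiv.Perm (Fin N)} {f : ℕ → ℕ} (h : E.IsCode σ f) {b : ℕ} (hb : b < N) :
    f b = (σ ⟨b, hb⟩).val := h ⟨b, hb⟩

theorem wEqT_of_eq {l₁ l₂ : List ℕ} (h : wG l₁ = wG l₂) : wEqT l₁ l₂ = true := by
  refine allL_iff.2 fun b hb => ?_
  have hb' : b < N := hbl b hb
  rw [code_apply (wG_code l₁) hb', code_apply (wG_code l₂) hb', h]
  exact Nat.beq_refl _

theorem okK_lt {k : ℕ} (h : okK k = true) : k < 21 := by
  by_contra h2
  have h3 : Nat.shiftRight okMask k = 0 := by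
    show okMask >>> k = 0
    rw [Nat.shiftRight_eq_div_pow]
    refine Nat.div_eq_of_lt (lt_of_lt_of_le (show okMask < 2 ^ 21 by decide) ?_)
    exact Nat.pow_le_pow_right (by norm_num) (by omega)
  have h4 : Nat.beq (Nat.land (Nat.shiftRight okMask k) 1) 1 = true := h
  rw [h3] at h4
  exact Bool.noConfusion h4

theorem invK_spec {k : ℕ} (h : okK k = true) : gG (invK k) = (gG k)⁻¹ := by
  have h1 := wG_eq (invChk k (okK_lt h) h)
  rw [wG_cons, wG_cons, wG_nil, mul_one] at h1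
  exact eq_inv_of_mul_eq_one_left h1

theorem wI_cons (k : ℕ) (l : List ℕ) (i : ℕ) : wI (k :: l) i = wI l (Tc (invK k) i) :=
  force_eq _ _

theorem wI_code (l : List ℕ) (h : allOk l = true) :
    E.IsCode (((wG l)⁻¹ : G) : Equiv.Perm (Fin N)) (wI l) := by
  induction l with
  | nil =>
    intro a
    rw [wG_nil, inv_one]
    rfl
  | cons k l ih =>
    have h1 : okK k = true := allL_iff.1 h k List.mem_cons_self
    have h2 : allOk l = true := allL_iff.2 fun a ha => allL_iff.1 h a (List.mem_cons_of_mem _ ha)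
    rw [wG_cons, mul_inv_rev, ← invK_spec h1]
    have h3 := coe_code_mul (ih h2) (gG_code (invK k))
    intro a
    rw [wI_cons]
    exact h3 a

theorem evC_code (l : List ℕ) (h : allOk l = true) :
    E.IsCode ((wG l * gG 9 * (wG l)⁻¹ : G) : Equiv.Perm (Fin N)) (evC l) := by
  have h1 := coe_code_mul (coe_code_mul (wG_code l) (gG_code 9)) (wI_code l h)
  intro a
  have h2 := h1 a
  have e : evC l a.val = wE l (Tc 9 (wI l a.val)) := by
    unfold evC
    rw [force_eq]
  show evC l (E.idx a) = _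
  exact e.trans h2

theorem clsAll : allBelow clsChk (9 * 2475) = true := allBelow_of_chunks (fun c hc => by
    interval_cases c
    · exact cCls0
    · exact cCls1
    · exact cCls2
    · exact cCls3
    · exact cCls4
    · exact cCls5
    · exact cCls6
    · exact cCls7
    · exact cCls8
  )

theorem cls_spec {i : ℕ} (hi : i < 22275) : allOk (clW i) = true ∧ keyC (clW i) = clK i ∧
    (i ≠ 22274 → clK i < clK (i + 1)) := by
  have h := (allBelow_iff _ _).1 clsAll i (by omega)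
  unfold clsChk at h
  cases h1 : allOk (clW i)
  · rw [h1, bcond_false] at h
    exact absurd h (by simp)
  · rw [h1, bcond_true] at h
    cases h2 : Nat.beq (keyC (clW i)) (clK i)
    · rw [h2, bcond_false] at h
      exact absurd h (by simp)
    · rw [h2, bcond_true] at h
      refine ⟨rfl, Nat.eq_of_beq_eq_true h2, fun h3 => ?_⟩
      have h4 : Nat.beq i 22274 = false := by
        rw [Bool.eq_false_iff]
        exact fun h5 => h3 (Nat.eq_of_beq_eq_true h5)
      rw [h4, bcond_false] at h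
      simpa [Nat.blt_eq] using h

theorem clK_lt {i j : ℕ} (hij : i < j) (hj : j < 22275) : clK i < clK j := by
  induction j with
  | zero => omega
  | succ j ih =>
    have h1 := (cls_spec (i := j) (by omega)).2.2 (by omega)
    rcases Nat.lt_succ_iff_lt_or_eq.1 hij with h | h
    · exact lt_trans (ih h (by omega)) h1
    · subst h
      exact h1

theorem cls_inj (i j : Fin 22275)
    (h : wG (clW i) * gG 9 * (wG (clW i))⁻¹ = wG (clW j) * gG 9 * (wG (clW j))⁻¹) : i = j := by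
  obtain ⟨h1, h2, _⟩ := cls_spec i.isLt
  obtain ⟨h3, h4, _⟩ := cls_spec j.isLt
  have hp : ∀ p, p < N → evC (clW i) p = evC (clW j) p := by
    intro p hp
    rw [code_apply (evC_code _ h1) hp, code_apply (evC_code _ h3) hp, h]
  have hk : clK i = clK j := by
    rw [← h2, ← h4]
    unfold keyC
    rw [hp 17 (by norm_num), hp 1234 (by norm_num), hp 777 (by norm_num), hp 1999 (by norm_num)]
  apply Fin.ext
  rcases lt_trichotomy i.val j.val with h5 | h5 | h5
  · exact absurd hk (ne_of_lt (clK_lt h5 j.isLt))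
  · exact h5
  · exact absurd hk.symm (ne_of_lt (clK_lt h5 i.isLt))

/-- The involution. -/
noncomputable def tG : G := gG 9

theorem wG_nine : wG [9] = tG := by
  rw [wG_cons, wG_nil, mul_one]
  rfl

theorem tG_sq : tG * tG = 1 := by
  have h := wG_eq sqT
  rw [wG_cons, wG_cons, wG_nil, mul_one] at h
  exact h

theorem tG_ne : tG ≠ 1 := by
  intro h
  have h1 := wEqT_of_eq (l₁ := [9]) (l₂ := []) (by rw [wG_nine, h, wG_nil])
  rw [notOne] at h1
  exact Bool.noConfusion h1

/-- The centraliser. -/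
noncomputable abbrev CC : Subgroup G := centralizer ({tG} : Set G)

theorem hCbound : Nat.card CC ≤ 40320 :=
  card_centralizer_le' (m := 22275) (c := 40320) tG (fun i => wG (clW i)) cls_inj (by rw [show Nat.card G = 898128000 from card_H]) (by norm_num)

theorem mem_CC {g : G} (h : g * tG = tG * g) : g ∈ CC := by
  refine Subgroup.mem_centralizer_iff.2 ?_
  intro y hy
  have hy' : y = tG := hy
  rw [hy']
  exact h.symm

theorem gwF_mem : ∀ k, wG (gwF k) ∈ CC := by
  have key : ∀ k, k < 4 → wG (gwF k) ∈ CC := by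
    intro k hk
    apply mem_CC
    have h := wG_eq (commChk k hk)
    rw [wG_append, wG_append, wG_nine] at h
    exact h
  intro k
  match k with
  | 0 => exact key 0 (by norm_num)
  | 1 => exact key 1 (by norm_num)
  | 2 => exact key 2 (by norm_num)
  | 3 => exact key 3 (by norm_num)
  | (k + 4) => exact CC.one_mem

/-- The generators of the centraliser. -/
noncomputable def cG (k : ℕ) : ↥CC := ⟨wG (gwF k), gwF_mem k⟩

theorem sP_mem : ∀ k, sP k ∈ alternatingGroup (Fin 8) := by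
  intro k
  match k with
  | 0 => exact Equiv.Perm.mem_alternatingGroup.2 (by decide +kernel)
  | 1 => exact (alternatingGroup (Fin 8)).one_mem
  | 2 => exact Equiv.Perm.mem_alternatingGroup.2 (by decide +kernel)
  | 3 => exact Equiv.Perm.mem_alternatingGroup.2 (by decide +kernel)
  | (k + 4) => exact (alternatingGroup (Fin 8)).one_mem

/-- The generators on the letters. -/
def sA (k : ℕ) : A₈ := ⟨sP k, sP_mem k⟩

/-- A word in the centraliser. -/
noncomputable def wC (l : List ℕ) : ↥CC := (l.map cG).prod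
/-- A word in the alternating group. -/
def wA (l : List ℕ) : A₈ := (l.map sA).prod

theorem wC_cons (k : ℕ) (l : List ℕ) : wC (k :: l) = cG k * wC l := by
  simp [wC]

theorem wA_cons (k : ℕ) (l : List ℕ) : wA (k :: l) = sA k * wA l := by
  simp [wA]

theorem wC_val (l : List ℕ) : ((wC l : ↥CC) : G) = wG (flatW gwF l) := by
  induction l with
  | nil => rfl
  | cons k l ih =>
    rw [wC_cons]
    show ((cG k : ↥CC) : G) * ((wC l : ↥CC) : G) = wG (gwF k ++ flatW gwF l)
    rw [ih, wG_append]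
    rfl

theorem wA_val (l : List ℕ) : ((wA l : A₈) : Equiv.Perm (Fin 8)) = wP l := by
  induction l with
  | nil => rfl
  | cons k l ih =>
    rw [wA_cons]
    show ((sA k : A₈) : Equiv.Perm (Fin 8)) * ((wA l : A₈) : Equiv.Perm (Fin 8)) = _
    rw [ih]
    simp [wP, sA]

theorem fixed (c : ↥CC) (p : Fin N) (hp : ((tG : G) : Equiv.Perm (Fin N)) p = p) :
    ((tG : G) : Equiv.Perm (Fin N)) (((c : G) : Equiv.Perm (Fin N)) p) = ((c : G) : Equiv.Perm (Fin N)) p := by
  have h : tG * (c : G) = (c : G) * tG := Subgroup.mem_centralizer_iff.1 c.2 tG rfl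
  have h2 : ((tG : G) : Equiv.Perm (Fin N)) * ((c : G) : Equiv.Perm (Fin N)) =
      ((c : G) : Equiv.Perm (Fin N)) * ((tG : G) : Equiv.Perm (Fin N)) := congrArg Subtype.val h
  have h3 := congrArg (fun f : Equiv.Perm (Fin N) => f p) h2
  simp only [Equiv.Perm.coe_mul, Function.comp_apply] at h3
  rw [h3, hp]

/-- The graph of the action on partitions of the letters. -/
noncomputable def Γ : Subgroup (↥CC × A₈) where
  carrier := {x | ∀ p : Fin N, ((tG : G) : Equiv.Perm (Fin N)) p = p → ∀ a b : Fin 8,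
    Rn ((((x.1 : ↥CC) : G) : Equiv.Perm (Fin N)) p).val (((x.2 : A₈) : Equiv.Perm (Fin 8)) a).val
      (((x.2 : A₈) : Equiv.Perm (Fin 8)) b).val = Rn p.val a.val b.val}
  one_mem' := by
    intro p _ a b
    rfl
  mul_mem' := by
    rintro x y hx hy p hp a b
    have h1 := hx (((y.1 : G) : Equiv.Perm (Fin N)) p) (fixed y.1 p hp)
      (((y.2 : A₈) : Equiv.Perm (Fin 8)) a) (((y.2 : A₈) : Equiv.Perm (Fin 8)) b)
    exact h1.trans (hy p hp a b)
  inv_mem' := by
    rintro x hx p hp a b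
    have h1 := hx (((x.1⁻¹ : ↥CC) : G).1 p) (fixed x.1⁻¹ p hp)
      (((x.2⁻¹ : A₈) : Equiv.Perm (Fin 8)) a) (((x.2⁻¹ : A₈) : Equiv.Perm (Fin 8)) b)
    have e1 : ((x.1 : G) : Equiv.Perm (Fin N)) (((x.1⁻¹ : ↥CC) : G).1 p) = p := by
      show ((x.1 : G) : Equiv.Perm (Fin N)) (((x.1 : G) : Equiv.Perm (Fin N))⁻¹ p) = p
      simp
    have e2 : ∀ c, ((x.2 : A₈) : Equiv.Perm (Fin 8)) (((x.2⁻¹ : A₈) : Equiv.Perm (Fin 8)) c) = c := by
      intro c
      show ((x.2 : A₈) : Equiv.Perm (Fin 8)) (((x.2 : A₈) : Equiv.Perm (Fin 8))⁻¹ c) = c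
      simp
    rw [e1, e2, e2] at h1
    exact h1.symm

theorem mem_Γ {x : ↥CC × A₈} : x ∈ Γ ↔ ∀ p : Fin N, ((tG : G) : Equiv.Perm (Fin N)) p = p → ∀ a b : Fin 8,
    Rn ((((x.1 : ↥CC) : G) : Equiv.Perm (Fin N)) p).val (((x.2 : A₈) : Equiv.Perm (Fin 8)) a).val
      (((x.2 : A₈) : Equiv.Perm (Fin 8)) b).val = Rn p.val a.val b.val := Iff.rfl

theorem gen_key (k : ℕ) (h : allBelow (genChk k) 2025 = true) : (cG k, sA k) ∈ Γ := by
  rw [mem_Γ]
  intro p hp a b
  have h1 := (allBelow_iff _ _).1 h p.val p.isLt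
  have hfix : Tc 9 p.val = p.val := by
    have h2 : Tc 9 p.val = (((gG 9 : G) : Equiv.Perm (Fin N)) p).val := gG_code 9 p
    rw [h2]
    exact congrArg Fin.val hp
  unfold genChk at h1
  have hb : Nat.beq (Tc 9 p.val) p.val = true := by
    rw [hfix]
    exact Nat.beq_refl _
  rw [hb, bcond_true] at h1
  have h5 := of_decide_eq_true h1 a b
  have h6 : wE (gwF k) p.val = (((wG (gwF k) : G) : Equiv.Perm (Fin N)) p).val := wG_code (gwF k) p
  rw [h6] at h5
  exact h5

theorem gen_mem : ∀ k, (cG k, sA k) ∈ Γ := by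
  intro k
  match k with
  | 0 => exact gen_key 0 gChk0
  | 1 => exact gen_key 1 gChk1
  | 2 => exact gen_key 2 gChk2
  | 3 => exact gen_key 3 gChk3
  | (k + 4) =>
    rw [mem_Γ]
    intro p _ a b
    rfl

theorem word_mem (l : List ℕ) : (wC l, wA l) ∈ Γ := by
  induction l with
  | nil => exact Γ.one_mem
  | cons k l ih =>
    rw [wC_cons, wA_cons]
    have h := Γ.mul_mem (gen_mem k) ih
    rwa [Prod.mk_mul_mk] at h

theorem hΓ1 (σ : A₈) (h : ((1 : ↥CC), σ) ∈ Γ) : σ = 1 := by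
  rw [mem_Γ] at h
  have h1 : ∀ p ∈ pL, ∀ a b : Fin 8, Rn p ((σ : Equiv.Perm (Fin 8)) a).val ((σ : Equiv.Perm (Fin 8)) b).val = Rn p a.val b.val := by
    intro p hp a b
    obtain ⟨h2, h3⟩ := pLfix p hp
    have h4 : ((tG : G) : Equiv.Perm (Fin N)) ⟨p, h2⟩ = ⟨p, h2⟩ := by
      apply Fin.ext
      have h5 : Tc 9 p = (((gG 9 : G) : Equiv.Perm (Fin N)) ⟨p, h2⟩).val := gG_code 9 ⟨p, h2⟩
      exact h5.symm.trans h3
    exact h ⟨p, h2⟩ h4 a b
  apply Subtype.ext
  apply Equiv.ext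
  intro a
  show (σ : Equiv.Perm (Fin 8)) a = a
  by_contra hne
  have hex : ∀ a x : Fin 8, ∃ b, b ≠ a ∧ b ≠ x := by decide
  obtain ⟨b, hb1, hb2⟩ := hex a ((σ : Equiv.Perm (Fin 8)) a)
  rcases sepChk a b ((σ : Equiv.Perm (Fin 8)) a) ((σ : Equiv.Perm (Fin 8)) b) (Ne.symm hb1) (fun p hp => h1 p hp a b) with h2 | h2
  · exact hne h2.1
  · exact hb2 h2.1.symm

theorem hΓs (σ : A₈) : ∃ c, (c, σ) ∈ Γ := by
  classical
  let PP : Subgroup (Equiv.Perm (Fin 8)) := (Γ.map (MonoidHom.snd _ _)).map (alternatingGroup (Fin 8)).subtype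
  have hw : ∀ l, wP l ∈ PP := by
    intro l
    refine ⟨wA l, ⟨(wC l, wA l), word_mem l, rfl⟩, wA_val l⟩
  have h3 : ∀ g : Equiv.Perm (Fin 8), g.IsThreeCycle → g ∈ PP := by
    intro g hg
    have h0 : Equiv.Perm.IsThreeCycle (Equiv.swap (0 : Fin 8) 1 * Equiv.swap (0 : Fin 8) 2) :=
      Equiv.Perm.isThreeCycle_swap_mul_swap_same (by decide) (by decide) (by decide)
    have hc : IsConj (Equiv.swap (0 : Fin 8) 1 * Equiv.swap (0 : Fin 8) 2) g :=
      Equiv.Perm.isConj_iff_cycleType_eq.2 (h0.trans hg.symm)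
    obtain ⟨π, hπ⟩ := isConj_iff.1 hc
    have e : g = Equiv.swap (π 0) (π 1) * Equiv.swap (π 0) (π 2) := by
      rw [← hπ, Equiv.swap_apply_apply, Equiv.swap_apply_apply]
      group
    rw [e, ← threeChk (π 0) (π 1) (π 2) (by simp) (by simp) (by simp)]
    exact hw _
  have h4 : alternatingGroup (Fin 8) ≤ PP := by
    rw [← Equiv.Perm.closure_three_cycles_eq_alternating, Subgroup.closure_le]
    exact h3
  obtain ⟨τ, ⟨x, hx, rfl⟩, hτ⟩ := h4 σ.2
  have e : x.2 = σ := Subtype.ext hτ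
  refine ⟨x.1, ?_⟩
  rw [← e]
  exact hx

/-- The structure in the permutation group. -/
theorem main_G : (∀ x y : G, orderOf x = 2 → orderOf y = 2 → IsConj x y) ∧
    ∃ (ψ : ↥CC →* A₈) (z d c : ↥CC), Function.Surjective ψ ∧ (∀ x, ψ x = 1 ↔ x = 1 ∨ x = z) ∧ z ≠ 1 ∧
      (∀ x, x * z = z * x) ∧ ⁅d, c⁆ = z := by
  have hzv : ((cG 1 : ↥CC) : G) = tG := wG_nine
  have hz1 : (cG 1, (1 : A₈)) ∈ Γ := gen_mem 1
  have hcc : wC [2, 0, 2, 0] * wC [2, 0, 2, 0] = cG 1 := by
    apply Subtype.ext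
    show ((wC [2, 0, 2, 0] : ↥CC) : G) * ((wC [2, 0, 2, 0] : ↥CC) : G) = ((cG 1 : ↥CC) : G)
    rw [wC_val, ← wG_append, wG_eq sqC, hzv, wG_nine]
  have hss : wC [2] * wC [2] = 1 := by
    apply Subtype.ext
    show ((wC [2] : ↥CC) : G) * ((wC [2] : ↥CC) : G) = 1
    rw [wC_val, ← wG_append, wG_eq sqS, wG_nil]
  have hconj : ∀ {l l₁ l₂ : List ℕ}, wEqT (l ++ l₁) (l₂ ++ l) = true → IsConj (wG l₁) (wG l₂) := by
    intro l l₁ l₂ h
    have h1 := wG_eq h
    rw [wG_append, wG_append] at h1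
    refine isConj_iff.2 ⟨wG l, ?_⟩
    rw [h1]
    group
  have hsc : IsConj ((wC [2] : ↥CC) : G) tG := by
    rw [wC_val, ← wG_nine]
    exact (hconj cjS).symm
  have hsc2 : IsConj ((cG 1 * wC [2] : ↥CC) : G) tG := by
    show IsConj (((cG 1 : ↥CC) : G) * ((wC [2] : ↥CC) : G)) tG
    rw [wC_val, hzv, ← wG_nine, ← wG_append]
    exact (hconj cjZS).symm
  have hdc : wC [0, 2, 0, 0, 2, 0, 0] * wC [2, 0, 2, 0] = cG 1 * wC [2, 0, 2, 0] * wC [0, 2, 0, 0, 2, 0, 0] := by
    apply Subtype.ext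
    show ((wC [0, 2, 0, 0, 2, 0, 0] : ↥CC) : G) * ((wC [2, 0, 2, 0] : ↥CC) : G) =
      ((cG 1 : ↥CC) : G) * ((wC [2, 0, 2, 0] : ↥CC) : G) * ((wC [0, 2, 0, 0, 2, 0, 0] : ↥CC) : G)
    have h := wG_eq comDC
    rw [wG_append, wG_append, wG_append] at h
    rw [wC_val, wC_val, hzv, ← wG_nine, h, mul_assoc]
  have hd : ⁅wC [0, 2, 0, 0, 2, 0, 0], wC [2, 0, 2, 0]⁆ = cG 1 := by
    rw [commutatorElement_def, hdc]
    group
  have hfinal := abs_final (J := G) card_H tG tG_ne tG_sq hCbound Γ hΓ1 hΓs (cG 1) hzv hz1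
    (wC [2, 0, 2, 0]) (wA [2, 0, 2, 0]) (word_mem _) hcc (by rw [wA_val]; exact supC)
    (wC [2]) (wA [2]) (word_mem _) hss (by rw [wA_val]; exact supS) hsc hsc2
    (wC [0, 2, 0, 0, 2, 0, 0]) hd
  obtain ⟨h1, ψ, h2, h3⟩ := hfinal
  refine ⟨h1, ψ, cG 1, _, _, h2, h3, ?_, ?_, hd⟩
  · intro h
    apply tG_ne
    rw [← hzv, h]
    rfl
  · intro x
    apply Subtype.ext
    show (x : G) * ((cG 1 : ↥CC) : G) = ((cG 1 : ↥CC) : G) * x
    rw [hzv]
    exact (Subgroup.mem_centralizer_iff.1 x.2 tG rfl).symm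

/-- The structure in the McLaughlin group. -/
theorem main_McL : (∀ x y : ↥Cfsg.Spor.McL, orderOf x = 2 → orderOf y = 2 → IsConj x y) ∧
    ∃ t : ↥Cfsg.Spor.McL, orderOf t = 2 ∧
      Cfsg.IsNonsplitDoubleCover ↥(Subgroup.centralizer ({t} : Set ↥Cfsg.Spor.McL)) ↥(alternatingGroup (Fin 8)) := by
  obtain ⟨hG, ψ, z, d, c, hψ, hker, hz1, hzc, hd⟩ := main_G
  let e : G ≃* ↥Cfsg.Spor.McL := (equivRange R.rep hinj).symm
  refine ⟨?_, e tG, ?_, ?_⟩
  · intro x y hx hy
    have h1 := hG (e.symm x) (e.symm y) (by rw [MulEquiv.orderOf_eq]; exact hx) (by rw [MulEquiv.orderOf_eq]; exact hy)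
    obtain ⟨g, hg⟩ := isConj_iff.1 h1
    refine isConj_iff.2 ⟨e g, ?_⟩
    have h2 := congrArg e hg
    simpa using h2
  · rw [MulEquiv.orderOf_eq]
    exact orderOf_eq_prime (by rw [pow_two]; exact tG_sq) tG_ne
  · let f := centEquiv e tG
    refine Cfsg.Agent.Lib.FiKit.nonsplit_of (ψ.comp f.symm.toMonoidHom) (z := f z) ?_ ?_ ?_ ?_ center_A₈ ?_
    · intro y
      obtain ⟨x, rfl⟩ := hψ y
      exact ⟨f x, by simp⟩
    · intro h
      apply hz1
      have h2 := congrArg f.symm h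
      simpa using h2
    · intro x
      have h1 := hzc (f.symm x)
      have h2 := congrArg f h1
      simpa using h2
    · intro x
      have h1 := hker (f.symm x)
      constructor
      · intro h
        have h2 : ψ (f.symm x) = 1 := h
        rcases h1.1 h2 with h3 | h3
        · left
          have h4 := congrArg f h3
          simpa using h4
        · right
          have h4 := congrArg f h3
          simpa using h4
      · rintro (rfl | rfl)
        · simp
        · show ψ (f.symm (f z)) = 1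
          rw [MulEquiv.symm_apply_apply]
          exact (hker z).2 (Or.inr rfl)
    · have h1 : f z = ⁅f d, f c⁆ := by
        rw [← hd, map_commutatorElement]
      rw [h1, _root_.commutator_def]
      exact Subgroup.commutator_mem_commutator (Subgroup.mem_top _) (Subgroup.mem_top _)

end Cfsg.Agent.Lib.KnownSimple.McLInv
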